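import Cfsg.Agent.Lib.Transfer.Frobenius
import Cfsg.Agent.Lib.Hall.CoprimeSylow

/-!
# A finite group with a maximal subgroup nilpotent of class at most two is solvable
-/

set_option autoImplicit false
set_option linter.unusedSectionVars false
set_option linter.style.haveILetI false
set_option linter.unusedSimpArgs false
set_option linter.unnecessarySimpa false

namespace Cfsg.Agent.Lib.NilMax

open Cfsg Cfsg.Agent.Lib.Transfer Subgroup
open scoped Pointwise commutatorElement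

universe u

section Basic

variable {G : Type u} [Group G] [Finite G]

theorem mem_conj_iff {h x : G} {P : Subgroup G} : x ∈ MulAut.conj h • P ↔ h⁻¹ * x * h ∈ P := by
  rw [Subgroup.mem_smul_pointwise_iff_exists]
  constructor
  · rintro ⟨s, hs, rfl⟩
    simpa [MulAut.smul_def, mul_assoc] using hs
  · intro hx
    exact ⟨_, hx, by simp [MulAut.smul_def, mul_assoc]⟩

theorem mem_normalizer_of_conj {D : Subgroup G} {m : G}
    (h1 : ∀ d ∈ D, m * d * m⁻¹ ∈ D) (h2 : ∀ d ∈ D, m⁻¹ * d * m⁻¹⁻¹ ∈ D) :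
    m ∈ normalizer (D : Set G) := by
  rw [Subgroup.mem_normalizer_iff]
  intro d
  constructor
  · exact h1 d
  · intro hd
    have := h2 _ hd
    have e : m⁻¹ * (m * d * m⁻¹) * m⁻¹⁻¹ = d := by group
    rwa [e] at this

theorem mem_of_pow_mem_of_coprime' {C : Subgroup G} {g : G} {a b : ℕ} (hab : a.Coprime b)
    (h1 : g ^ a ∈ C) (h2 : g ^ b ∈ C) : g ∈ C := by
  have h3 : (a : ℤ) * Nat.gcdA a b + (b : ℤ) * Nat.gcdB a b = 1 := by
    have := Nat.gcd_eq_gcd_ab a b
    rw [show Nat.gcd a b = 1 from hab] at this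
    simpa using this.symm
  have h4 : g = (g ^ a) ^ (Nat.gcdA a b) * (g ^ b) ^ (Nat.gcdB a b) := by
    rw [← zpow_natCast, ← zpow_natCast, ← zpow_mul, ← zpow_mul, ← zpow_add, h3, zpow_one]
  rw [h4]
  exact C.mul_mem (C.zpow_mem h1 _) (C.zpow_mem h2 _)

/-- Normal `p`-part data for a nilpotent maximal subgroup. -/
theorem exists_data (M : Subgroup G) (hnil : Group.IsNilpotent M) (p : ℕ) [Fact p.Prime] :
    ∃ P K : Subgroup G, P ≤ M ∧ IsPGroup p P ∧ (∀ m ∈ M, ∃ a ∈ P, ∃ b ∈ K, m = a * b) ∧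
      (∀ a ∈ P, ∀ b ∈ K, a * b = b * a) ∧
      (∀ x ∈ M, (∃ k : ℕ, x ^ p ^ k = 1) → x ∈ P) ∧ (p ∣ Nat.card M → P ≠ ⊥) := by
  classical
  obtain ⟨S, K', hK', hc⟩ := hasNormalPComplement_of_isNilpotent (p := p) (G := M) hnil
  haveI : (S : Subgroup M).Normal :=
    Sylow.normal_of_normalizerCondition Group.normalizerCondition_of_isNilpotent S
  have hdisj : ∀ x : M, x ∈ K' → x ∈ (S : Subgroup M) → x = 1 := by
    intro x hx hx2
    have := hc.disjoint
    exact Subgroup.disjoint_def.1 this hx hx2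
  have hcomm : ∀ s ∈ (S : Subgroup M), ∀ k ∈ K', s * k = k * s := by
    intro s hs k hk
    have h1 : s * k * s⁻¹ * k⁻¹ ∈ K' := K'.mul_mem (hK'.conj_mem k hk s) (K'.inv_mem hk)
    have h2 : s * k * s⁻¹ * k⁻¹ ∈ (S : Subgroup M) := by
      have e : s * k * s⁻¹ * k⁻¹ = s * (k * s⁻¹ * k⁻¹) := by group
      rw [e]
      exact (S : Subgroup M).mul_mem hs (Subgroup.Normal.conj_mem inferInstance _
        ((S : Subgroup M).inv_mem hs) k)
    have h3 := hdisj _ h1 h2
    have e : s * k = (s * k * s⁻¹ * k⁻¹) * (k * s) := by group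
    rw [e, h3, one_mul]
  have hdec : ∀ m : M, ∃ k ∈ K', ∃ s ∈ (S : Subgroup M), m = k * s := by
    intro m
    obtain ⟨⟨k, s⟩, hks, -⟩ := hc.existsUnique m
    exact ⟨k, k.2, s, s.2, hks.symm⟩
  refine ⟨(S : Subgroup M).map M.subtype, K'.map M.subtype, Subgroup.map_subtype_le _, ?_, ?_, ?_, ?_, ?_⟩
  · exact (IsPGroup.map S.isPGroup' M.subtype)
  · intro m hm
    obtain ⟨k, hk, s, hs, hks⟩ := hdec ⟨m, hm⟩
    refine ⟨s, ⟨s, hs, rfl⟩, k, ⟨k, hk, rfl⟩, ?_⟩
    have := hcomm s hs k hk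
    have h2 := congrArg Subtype.val hks
    simp only [Subgroup.coe_mul] at h2
    rw [h2]
    exact (congrArg Subtype.val this).symm
  · rintro _ ⟨s, hs, rfl⟩ _ ⟨k, hk, rfl⟩
    exact congrArg Subtype.val (hcomm s hs k hk)
  · intro x hx ⟨j, hj⟩
    obtain ⟨k, hk, s, hs, hks⟩ := hdec ⟨x, hx⟩
    have hxs : ((⟨x, hx⟩ : M) ^ p ^ j) = 1 := Subtype.ext (by simpa using hj)
    rw [hks] at hxs
    have hc2 : Commute k s := (hcomm s hs k hk).symm
    rw [hc2.mul_pow] at hxs
    have h1 : k ^ p ^ j = (s ^ p ^ j)⁻¹ := eq_inv_of_mul_eq_one_left hxs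
    have h2 : k ^ p ^ j ∈ (S : Subgroup M) := by
      rw [h1]
      exact (S : Subgroup M).inv_mem ((S : Subgroup M).pow_mem hs _)
    have h3 := hdisj _ (K'.pow_mem hk _) h2
    have hcop := (mem_of_coprime_of_complement hc k).1 hk
    have h4 : orderOf k ∣ p ^ j := orderOf_dvd_of_pow_eq_one h3
    have h5 : orderOf k = 1 := Nat.Coprime.eq_one_of_dvd (Nat.Coprime.pow_right j hcop) h4
    have hk1 : k = 1 := orderOf_eq_one_iff.1 h5
    rw [hk1, one_mul] at hks
    refine ⟨s, hs, ?_⟩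
    exact (congrArg Subtype.val hks).symm
  · intro hd hbot
    have h0 : (S : Subgroup M) = ⊥ := by
      have := Subgroup.map_eq_bot_iff_of_injective (S : Subgroup M) M.subtype_injective
      exact this.1 hbot
    exact S.ne_bot_of_dvd_card hd h0

end Basic

section Local

variable {G : Type u} [Group G] [Finite G] {M : Subgroup G}

theorem normalizer_eq (hmax : IsCoatom M) (hcore : M.normalCore = ⊥) {D : Subgroup G}
    (hDM : D ≤ M) (hne : D ≠ ⊥) (hN : M ≤ normalizer (D : Set G)) : normalizer (D : Set G) = M := by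
  by_contra h
  have h1 : M < normalizer (D : Set G) := lt_of_le_of_ne hN (Ne.symm h)
  have h2 := hmax.2 _ h1
  haveI hDn : D.Normal := Subgroup.normalizer_eq_top_iff.1 h2
  have h3 : D ≤ M.normalCore := Subgroup.normal_le_normalCore.2 hDM
  rw [hcore] at h3
  exact hne (le_bot_iff.1 h3)

variable {P K : Subgroup G} {p : ℕ} [Fact p.Prime]

/-- Conjugation by an element of `M` on `P` is conjugation by an element of `P`. -/
theorem conj_in_P (hdec : ∀ m ∈ M, ∃ a ∈ P, ∃ b ∈ K, m = a * b)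
    (hcomm : ∀ a ∈ P, ∀ b ∈ K, a * b = b * a) {m : G} (hm : m ∈ M) :
    ∃ a ∈ P, ∀ d ∈ P, m * d * m⁻¹ = a * d * a⁻¹ := by
  obtain ⟨a, ha, b, hb, rfl⟩ := hdec m hm
  refine ⟨a, ha, fun d hd => ?_⟩
  have h1 : d * b = b * d := hcomm d hd b hb
  have e : a * b * d * (a * b)⁻¹ = a * (b * d) * b⁻¹ * a⁻¹ := by group
  rw [e, ← h1]
  group

theorem le_normalizer_of_commutator_le (hP : P ≤ M)
    (hdec : ∀ m ∈ M, ∃ a ∈ P, ∃ b ∈ K, m = a * b)
    (hcomm : ∀ a ∈ P, ∀ b ∈ K, a * b = b * a) {D : Subgroup G} (hDP : D ≤ P)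
    (hD : ∀ a ∈ P, ∀ b ∈ P, a * b * a⁻¹ * b⁻¹ ∈ D) : M ≤ normalizer (D : Set G) := by
  have key : ∀ m ∈ M, ∀ d ∈ D, m * d * m⁻¹ ∈ D := by
    intro m hm d hd
    obtain ⟨a, ha, hconj⟩ := conj_in_P hdec hcomm hm
    rw [hconj d (hDP hd)]
    have e : a * d * a⁻¹ = (a * d * a⁻¹ * d⁻¹) * d := by group
    rw [e]
    exact D.mul_mem (hD a ha d (hDP hd)) hd
  intro m hm
  exact mem_normalizer_of_conj (key m hm) (key m⁻¹ (M.inv_mem hm))

/-- The key intersection lemma. -/
theorem mem_of_inter (hmax : IsCoatom M) (hcore : M.normalCore = ⊥) (hP : P ≤ M)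
    (hpg : IsPGroup p P) (hdec : ∀ m ∈ M, ∃ a ∈ P, ∃ b ∈ K, m = a * b)
    (hcomm : ∀ a ∈ P, ∀ b ∈ K, a * b = b * a)
    (hpel : ∀ x ∈ M, (∃ k : ℕ, x ^ p ^ k = 1) → x ∈ P) {h : G}
    (hD : ∀ a ∈ P, ∀ b ∈ P, a * b * a⁻¹ * b⁻¹ ∈ P ⊓ (MulAut.conj h • P))
    (hne : P ⊓ (MulAut.conj h • P) ≠ ⊥) : h ∈ M := by
  classical
  set A := MulAut.conj h • P with hA
  set D := P ⊓ A with hDdef
  have hDP : D ≤ P := inf_le_left
  have hN := le_normalizer_of_commutator_le hP hdec hcomm hDP hD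
  have hND := normalizer_eq hmax hcore (hDP.trans hP) hne hN
  have hPne : P ≠ ⊥ := fun h0 => hne (by
    rw [hDdef, h0, bot_inf_eq])
  have hNP : normalizer (P : Set G) = M := normalizer_eq hmax hcore hP hPne
    (le_normalizer_of_commutator_le hP hdec hcomm le_rfl (fun a ha b hb =>
      P.mul_mem (P.mul_mem (P.mul_mem ha hb) (P.inv_mem ha)) (P.inv_mem hb)))
  have hcardA : Nat.card A = Nat.card P := by
    rw [hA]
    exact Nat.card_congr (Subgroup.equivSMul (MulAut.conj h) P).symm.toEquiv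
  by_cases hAP : A ≤ P
  · have hAeq : A = P := Subgroup.eq_of_le_of_card_ge hAP hcardA.ge
    rw [← hNP]
    refine mem_normalizer_of_conj ?_ ?_
    · intro d hd
      rw [← hAeq, hA, mem_conj_iff]
      simpa [mul_assoc] using hd
    · intro d hd
      have hd' : d ∈ A := hAeq ▸ hd
      rw [hA, mem_conj_iff] at hd'
      simpa [mul_assoc] using hd'
  · exfalso
    have hAinner : IsPGroup p A := by
      rw [IsPGroup.iff_card] at hpg ⊢
      obtain ⟨k, hk⟩ := hpg
      exact ⟨k, by rw [hcardA, hk]⟩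
    haveI : Group.IsNilpotent A := hAinner.isNilpotent
    have hne2 : D.subgroupOf A ≠ ⊤ := by
      intro htop
      have : A ≤ D := Subgroup.subgroupOf_eq_top.1 htop
      exact hAP (this.trans hDP)
    have hlt := (Group.normalizerCondition_of_isNilpotent (G := A)) (D.subgroupOf A)
      (lt_top_iff_ne_top.2 hne2)
    obtain ⟨y, hy1, hy2⟩ := SetLike.exists_of_lt hlt
    have hyN : (y : G) ∈ normalizer (D : Set G) := by
      refine mem_normalizer_of_conj ?_ ?_
      · intro d hd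
        have hdA : d ∈ A := hd.2
        have h1 := (Subgroup.mem_normalizer_iff.1 hy1 ⟨d, hdA⟩).1 (by simpa [Subgroup.mem_subgroupOf] using hd)
        simpa [Subgroup.mem_subgroupOf] using h1
      · intro d hd
        have hdA : d ∈ A := hd.2
        have h1 := (Subgroup.mem_normalizer_iff.1 (Subgroup.inv_mem _ hy1) ⟨d, hdA⟩).1 (by simpa [Subgroup.mem_subgroupOf] using hd)
        simpa [Subgroup.mem_subgroupOf] using h1
    have hyM : (y : G) ∈ M := hND ▸ hyN
    have hyp : ∃ k : ℕ, (y : G) ^ p ^ k = 1 := by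
      obtain ⟨k, hk⟩ := (IsPGroup.iff_orderOf.1 hAinner) y
      refine ⟨k, ?_⟩
      rw [← Subgroup.coe_pow, ← hk, pow_orderOf_eq_one]
      rfl
    have hyP := hpel _ hyM hyp
    apply hy2
    rw [Subgroup.mem_subgroupOf]
    exact ⟨hyP, y.2⟩


/-- Fusion: an element normalizing a subgroup of `P` acts as an element of `M`. -/
theorem exists_mul_centralizer (hmax : IsCoatom M) (hcore : M.normalCore = ⊥) (hP : P ≤ M)
    (hpg : IsPGroup p P) (hdec : ∀ m ∈ M, ∃ a ∈ P, ∃ b ∈ K, m = a * b)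
    (hcomm : ∀ a ∈ P, ∀ b ∈ K, a * b = b * a)
    (hpel : ∀ x ∈ M, (∃ k : ℕ, x ^ p ^ k = 1) → x ∈ P)
    (hcl : ∀ a ∈ P, ∀ b ∈ P, ∀ c ∈ P, (a * b * a⁻¹ * b⁻¹) * c = c * (a * b * a⁻¹ * b⁻¹))
    (hPne : P ≠ ⊥) (PS : Sylow p G) (hPS : (PS : Subgroup G) = P)
    {Q : Subgroup G} (hQP : Q ≤ P) {g : G} (hg : g ∈ normalizer (Q : Set G)) :
    ∃ m ∈ M, ∃ c ∈ centralizer (Q : Set G), g = m * c := by
  classical
  have hNP : normalizer (P : Set G) = M := normalizer_eq hmax hcore hP hPne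
    (le_normalizer_of_commutator_le hP hdec hcomm le_rfl (fun a ha b hb =>
      P.mul_mem (P.mul_mem (P.mul_mem ha hb) (P.inv_mem ha)) (P.inv_mem hb)))
  have hconjQ : ∀ x ∈ Q, g⁻¹ * x * g ∈ Q := by
    intro x hx
    have := (Subgroup.mem_normalizer_iff.1 hg (g⁻¹ * x * g)).2 (by
      have e : g * (g⁻¹ * x * g) * g⁻¹ = x := by group
      rwa [e])
    exact this
  by_cases hW : ∀ a ∈ P, ∀ b ∈ P, a * b * a⁻¹ * b⁻¹ = 1
  · -- abelian case
    by_cases hQ : Q = ⊥
    · refine ⟨1, M.one_mem, g, ?_, (one_mul g).symm⟩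
      rw [Subgroup.mem_centralizer_iff]
      intro x hx
      have hx1 : x = 1 := by
        rw [hQ] at hx
        exact (Subgroup.mem_bot).1 hx
      simp [hx1]
    · refine ⟨g, ?_, 1, Subgroup.one_mem _, (mul_one g).symm⟩
      refine mem_of_inter hmax hcore hP hpg hdec hcomm hpel (fun a ha b hb => ?_) ?_
      · rw [hW a ha b hb]
        exact Subgroup.one_mem _
      · intro hbot
        apply hQ
        rw [eq_bot_iff]
        intro x hx
        have : x ∈ P ⊓ (MulAut.conj g • P) := ⟨hQP hx, mem_conj_iff.2 (hQP (hconjQ x hx))⟩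
        rwa [hbot] at this
  · -- the commutator subgroup is nontrivial
    push Not at hW
    let W : Subgroup G := ⁅P, P⁆
    have hWP : W ≤ P := Subgroup.commutator_le.2 fun a ha b hb => by
      rw [commutatorElement_def]
      exact P.mul_mem (P.mul_mem (P.mul_mem ha hb) (P.inv_mem ha)) (P.inv_mem hb)
    have hWmem : ∀ a ∈ P, ∀ b ∈ P, a * b * a⁻¹ * b⁻¹ ∈ W := fun a ha b hb => by
      rw [← commutatorElement_def]
      exact Subgroup.commutator_mem_commutator ha hb
    have hWne : W ≠ ⊥ := by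
      obtain ⟨a, ha, b, hb, hab⟩ := hW
      intro hbot
      apply hab
      have := hWmem a ha b hb
      rw [hbot] at this
      exact (Subgroup.mem_bot).1 this
    -- `W` lies in a unique conjugate of `P`
    have huniq : ∀ h : G, W ≤ MulAut.conj h • P → h ∈ M := by
      intro h hWh
      refine mem_of_inter hmax hcore hP hpg hdec hcomm hpel
        (fun a ha b hb => ⟨hWP (hWmem a ha b hb), hWh (hWmem a ha b hb)⟩) ?_
      intro hbot
      apply hWne
      rw [eq_bot_iff, ← hbot]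
      exact le_inf hWP hWh
    let C : Subgroup G := centralizer (Q : Set G)
    have hWC : W ≤ C := by
      refine Subgroup.commutator_le.2 fun a ha b hb => ?_
      rw [commutatorElement_def, Subgroup.mem_centralizer_iff]
      intro x hx
      exact (hcl a ha b hb x (hQP hx)).symm
    -- conjugate of `W` by `g⁻¹` also lies in `C`
    let W₁ : Subgroup G := MulAut.conj g⁻¹ • W
    have hW₁C : W₁ ≤ C := by
      intro y hy
      rw [mem_conj_iff] at hy
      have h1 : g⁻¹⁻¹ * y * g⁻¹ ∈ C := hWC hy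
      rw [Subgroup.mem_centralizer_iff]
      intro x hx
      have h2 := (Subgroup.mem_centralizer_iff.1 h1) (g * x * g⁻¹)
        ((Subgroup.mem_normalizer_iff.1 hg x).1 hx)
      simp only [inv_inv] at h2
      have h3 : g * (g⁻¹ * (g * x * g⁻¹ * (g * y * g⁻¹)) * g) * g⁻¹ =
          g * (g⁻¹ * (g * y * g⁻¹ * (g * x * g⁻¹)) * g) * g⁻¹ := by rw [h2]
      have hinj : x * y = y * x := by
        have h4 : g * (x * y) * g⁻¹ = g * (y * x) * g⁻¹ := by
          have e1 : g * (x * y) * g⁻¹ = g * x * g⁻¹ * (g * y * g⁻¹) := by group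
          have e2 : g * (y * x) * g⁻¹ = g * y * g⁻¹ * (g * x * g⁻¹) := by group
          rw [e1, e2, h2]
        exact mul_left_cancel (mul_right_cancel h4)
      exact hinj
    have hWpg : IsPGroup p W := hpg.to_le hWP
    have hW₁pg : IsPGroup p W₁ := by
      have hcard : Nat.card W₁ = Nat.card W :=
        Nat.card_congr (Subgroup.equivSMul (MulAut.conj g⁻¹) W).symm.toEquiv
      have h2 := hWpg
      rw [IsPGroup.iff_card] at h2 ⊢
      obtain ⟨k, hk⟩ := h2
      exact ⟨k, by rw [hcard, hk]⟩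
    have hWsub : IsPGroup p (W.subgroupOf C) := by
      refine hWpg.of_injective ?_ ?_ |> fun h => h
      · exact (Subgroup.subgroupOfEquivOfLe hWC).toMonoidHom
      · exact (Subgroup.subgroupOfEquivOfLe hWC).injective
    have hW₁sub : IsPGroup p (W₁.subgroupOf C) := by
      refine hW₁pg.of_injective ?_ ?_ |> fun h => h
      · exact (Subgroup.subgroupOfEquivOfLe hW₁C).toMonoidHom
      · exact (Subgroup.subgroupOfEquivOfLe hW₁C).injective
    obtain ⟨T, hWT⟩ := hWsub.exists_le_sylow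
    obtain ⟨U, hW₁U⟩ := hW₁sub.exists_le_sylow
    obtain ⟨c, hc⟩ := MulAction.exists_smul_eq C U T
    -- `T` lies in `P`
    have hTpg : IsPGroup p ((T : Subgroup C).map C.subtype) := T.isPGroup'.map C.subtype
    obtain ⟨P₁, hTP₁⟩ := hTpg.exists_le_sylow
    obtain ⟨x, hx⟩ := MulAction.exists_smul_eq G PS P₁
    have hP₁ : (P₁ : Subgroup G) = MulAut.conj x • P := by
      rw [← hx, Sylow.coe_subgroup_smul, hPS]
    have hWT' : W ≤ (T : Subgroup C).map C.subtype := by
      intro y hy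
      exact ⟨⟨y, hWC hy⟩, hWT (by simpa [Subgroup.mem_subgroupOf] using hy), rfl⟩
    have hxM : x ∈ M := huniq x (by
      rw [← hP₁]
      exact hWT'.trans hTP₁)
    have hP₁P : (P₁ : Subgroup G) = P := by
      rw [hP₁]
      have hxN : x ∈ normalizer (P : Set G) := hNP ▸ hxM
      apply le_antisymm
      · intro y hy
        rw [mem_conj_iff] at hy
        have := (Subgroup.mem_normalizer_iff.1 hxN (x⁻¹ * y * x)).1 hy
        have e : x * (x⁻¹ * y * x) * x⁻¹ = y := by group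
        rwa [e] at this
      · intro y hy
        rw [mem_conj_iff]
        have hxi : x⁻¹ ∈ normalizer (P : Set G) := Subgroup.inv_mem _ hxN
        have := (Subgroup.mem_normalizer_iff.1 hxi y).1 hy
        simpa using this
    have hTP : (T : Subgroup C).map C.subtype ≤ P := hP₁P ▸ hTP₁
    set m₀ := (c : G) * g⁻¹ with hm₀
    have hm₀M : m₀⁻¹ ∈ M := huniq _ (by
      intro y hy
      rw [mem_conj_iff, inv_inv]
      -- `g⁻¹ y g` lies in `W₁`
      have hy₁ : g⁻¹ * y * g⁻¹⁻¹ ∈ W₁ := by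
        rw [mem_conj_iff]
        have e : g⁻¹⁻¹ * (g⁻¹ * y * g⁻¹⁻¹) * g⁻¹ = y := by group
        rwa [e]
      have hy₁C := hW₁C hy₁
      have hU : (⟨_, hy₁C⟩ : C) ∈ (U : Subgroup C) := hW₁U (by
        simpa [Subgroup.mem_subgroupOf] using hy₁)
      have hT : c * (⟨_, hy₁C⟩ : C) * c⁻¹ ∈ (T : Subgroup C) := by
        rw [← hc, Sylow.coe_subgroup_smul, mem_conj_iff]
        have e : c⁻¹ * (c * (⟨_, hy₁C⟩ : C) * c⁻¹) * c = (⟨_, hy₁C⟩ : C) := by group
        rwa [e]
      have hTG : ((c * (⟨_, hy₁C⟩ : C) * c⁻¹ : C) : G) ∈ (T : Subgroup C).map C.subtype :=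
        ⟨_, hT, rfl⟩
      have := hTP hTG
      have e : m₀ * y * m₀⁻¹ = ((c * (⟨_, hy₁C⟩ : C) * c⁻¹ : C) : G) := by
        simp only [hm₀, Subgroup.coe_mul, Subgroup.coe_inv]
        group
      rw [e]
      exact this)
    refine ⟨m₀⁻¹, hm₀M, c, c.2, ?_⟩
    rw [hm₀]
    group


/-- The hypothesis of Frobenius' normal complement theorem. -/
theorem frobeniusHyp_of_data (hmax : IsCoatom M) (hcore : M.normalCore = ⊥) (hP : P ≤ M)
    (hpg : IsPGroup p P) (hdec : ∀ m ∈ M, ∃ a ∈ P, ∃ b ∈ K, m = a * b)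
    (hcomm : ∀ a ∈ P, ∀ b ∈ K, a * b = b * a)
    (hpel : ∀ x ∈ M, (∃ k : ℕ, x ^ p ^ k = 1) → x ∈ P)
    (hcl : ∀ a ∈ P, ∀ b ∈ P, ∀ c ∈ P, (a * b * a⁻¹ * b⁻¹) * c = c * (a * b * a⁻¹ * b⁻¹))
    (hPne : P ≠ ⊥) (PS : Sylow p G) (hPS : (PS : Subgroup G) = P) :
    FrobeniusHyp p (PS : Subgroup G) := by
  intro Q hQ g hg hcop
  rw [hPS] at hQ
  obtain ⟨m, hm, c, hc, rfl⟩ := exists_mul_centralizer hmax hcore hP hpg hdec hcomm hpel hcl hPne
    PS hPS hQ hg
  obtain ⟨a, ha, hconj⟩ := conj_in_P hdec hcomm hm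
  set g := m * c with hgdef
  have hact : ∀ x ∈ Q, g * x * g⁻¹ = a * x * a⁻¹ := by
    intro x hx
    have h1 : c * x = x * c := (Subgroup.mem_centralizer_iff.1 hc) x hx |>.symm
    have e : g * x * g⁻¹ = m * (c * x) * c⁻¹ * m⁻¹ := by
      rw [hgdef]
      group
    rw [e, h1, ← hconj x (hQ hx)]
    group
  have hQg : ∀ x ∈ Q, g * x * g⁻¹ ∈ Q := fun x hx =>
    (Subgroup.mem_normalizer_iff.1 hg x).1 hx
  have hiter : ∀ j : ℕ, ∀ x ∈ Q, g ^ j * x * (g ^ j)⁻¹ = a ^ j * x * (a ^ j)⁻¹ ∧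
      g ^ j * x * (g ^ j)⁻¹ ∈ Q := by
    intro j
    induction j with
    | zero =>
      intro x hx
      simpa using hx
    | succ j ih =>
      intro x hx
      obtain ⟨h1, h2⟩ := ih x hx
      have e1 : g ^ (j + 1) * x * (g ^ (j + 1))⁻¹ = g * (g ^ j * x * (g ^ j)⁻¹) * g⁻¹ := by
        rw [pow_succ']
        group
      have e2 : a ^ (j + 1) * x * (a ^ (j + 1))⁻¹ = a * (a ^ j * x * (a ^ j)⁻¹) * a⁻¹ := by
        rw [pow_succ']
        group
      refine ⟨?_, ?_⟩
      · rw [e1, e2, hact _ h2, h1]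
      · rw [e1]
        exact hQg _ h2
  obtain ⟨k, hk⟩ := (IsPGroup.iff_orderOf.1 hpg) ⟨a, ha⟩
  have hak : a ^ p ^ k = 1 := by
    rw [← Subgroup.orderOf_coe, Subgroup.coe_mk] at hk
    rw [← hk, pow_orderOf_eq_one]
  rw [Subgroup.mem_centralizer_iff]
  intro x hx
  have hcomm2 : g ^ p ^ k ∈ Subgroup.centralizer ({x} : Set G) := by
    rw [Subgroup.mem_centralizer_singleton_iff]
    have h1 := (hiter (p ^ k) x hx).1
    rw [hak] at h1
    simp only [one_mul, inv_one, mul_one] at h1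
    exact (mul_inv_eq_iff_eq_mul.1 h1)
  have hcomm3 : g ^ orderOf g ∈ Subgroup.centralizer ({x} : Set G) := by
    rw [pow_orderOf_eq_one]
    exact Subgroup.one_mem _
  have hmem := mem_of_pow_mem_of_coprime' (Nat.Coprime.pow_left k (Nat.Coprime.symm hcop)) hcomm2
    hcomm3
  rw [Subgroup.mem_centralizer_singleton_iff] at hmem
  exact hmem.symm

end Local


section Main

variable {G : Type u} [Group G] [Finite G] {M : Subgroup G}

theorem exists_pcomp (hmax : IsCoatom M) (hcore : M.normalCore = ⊥) (hnil : Group.IsNilpotent M)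
    (hcl : ∀ a ∈ M, ∀ b ∈ M, ∀ c ∈ M, (a * b * a⁻¹ * b⁻¹) * c = c * (a * b * a⁻¹ * b⁻¹))
    (p : ℕ) [Fact p.Prime] (hp : p ∣ Nat.card M) :
    ∃ N : Subgroup G, N.Normal ∧ (∀ x, x ∈ N ↔ Nat.Coprime (orderOf x) p) ∧ ¬ p ∣ M.index := by
  classical
  obtain ⟨P, K, hP, hpg, hdec, hcomm, hpel, hPb⟩ := exists_data M hnil p
  have hPne := hPb hp
  have hNP : normalizer (P : Set G) = M := normalizer_eq hmax hcore hP hPne
    (le_normalizer_of_commutator_le hP hdec hcomm le_rfl (fun a ha b hb =>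
      P.mul_mem (P.mul_mem (P.mul_mem ha hb) (P.inv_mem ha)) (P.inv_mem hb)))
  obtain ⟨PS, hPS⟩ := hpg.exists_le_sylow
  have hPSeq : (PS : Subgroup G) = P := by
    by_contra hne
    haveI : Group.IsNilpotent (PS : Subgroup G) := PS.isPGroup'.isNilpotent
    have hne2 : P.subgroupOf (PS : Subgroup G) ≠ ⊤ := by
      intro htop
      exact hne (le_antisymm (Subgroup.subgroupOf_eq_top.1 htop) hPS)
    have hlt := (Group.normalizerCondition_of_isNilpotent (G := (PS : Subgroup G)))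
      (P.subgroupOf (PS : Subgroup G)) (lt_top_iff_ne_top.2 hne2)
    obtain ⟨y, hy1, hy2⟩ := SetLike.exists_of_lt hlt
    have hyN : (y : G) ∈ normalizer (P : Set G) := by
      refine mem_normalizer_of_conj ?_ ?_
      · intro d hd
        have h1 := (Subgroup.mem_normalizer_iff.1 hy1 ⟨d, hPS hd⟩).1 (by
          simpa [Subgroup.mem_subgroupOf] using hd)
        simpa [Subgroup.mem_subgroupOf] using h1
      · intro d hd
        have h1 := (Subgroup.mem_normalizer_iff.1 (Subgroup.inv_mem _ hy1) ⟨d, hPS hd⟩).1 (by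
          simpa [Subgroup.mem_subgroupOf] using hd)
        simpa [Subgroup.mem_subgroupOf] using h1
    have hyM : (y : G) ∈ M := hNP ▸ hyN
    have hyp : ∃ k : ℕ, (y : G) ^ p ^ k = 1 := by
      obtain ⟨k, hk⟩ := (IsPGroup.iff_orderOf.1 PS.isPGroup') y
      refine ⟨k, ?_⟩
      rw [← Subgroup.coe_pow, ← hk, pow_orderOf_eq_one]
      rfl
    exact hy2 (by
      rw [Subgroup.mem_subgroupOf]
      exact hpel _ hyM hyp)
  have hcl2 : ∀ a ∈ P, ∀ b ∈ P, ∀ c ∈ P, (a * b * a⁻¹ * b⁻¹) * c = c * (a * b * a⁻¹ * b⁻¹) :=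
    fun a ha b hb c hc => hcl a (hP ha) b (hP hb) c (hP hc)
  obtain ⟨N, hN, hc⟩ := frobenius PS
    (frobeniusHyp_of_data hmax hcore hP hpg hdec hcomm hpel hcl2 hPne PS hPSeq)
  refine ⟨N, hN, fun x => mem_of_coprime_of_complement hc x, ?_⟩
  intro hd
  refine PS.not_dvd_index (hd.trans ?_)
  exact Subgroup.index_dvd_of_le (hPSeq ▸ hP)

/-- Core-free case. -/
theorem solvable_of_core_free (hmax : IsCoatom M) (hcore : M.normalCore = ⊥)
    (hnil : Group.IsNilpotent M)
    (hcl : ∀ a ∈ M, ∀ b ∈ M, ∀ c ∈ M, (a * b * a⁻¹ * b⁻¹) * c = c * (a * b * a⁻¹ * b⁻¹)) :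
    Group.IsSolvable G := by
  classical
  have key : ∀ p : ℕ, p.Prime → p ∣ Nat.card M →
      ∃ N : Subgroup G, N.Normal ∧ (∀ x, x ∈ N ↔ Nat.Coprime (orderOf x) p) ∧ ¬ p ∣ M.index := by
    intro p hp hd
    haveI : Fact p.Prime := ⟨hp⟩
    exact exists_pcomp hmax hcore hnil hcl p hd
  choose! N hN1 hN2 hN3 using key
  let T : Subgroup G :=
    { carrier := {x | ∀ p : ℕ, p.Prime → p ∣ Nat.card M → x ∈ N p}
      mul_mem' := fun ha hb p hp hd => (N p).mul_mem (ha p hp hd) (hb p hp hd)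
      one_mem' := fun p _ _ => (N p).one_mem
      inv_mem' := fun ha p hp hd => (N p).inv_mem (ha p hp hd) }
  haveI hTn : T.Normal := ⟨fun x hx g p hp hd =>
    (hN1 p hp hd).conj_mem x (hx p hp hd) g⟩
  have hTmem : ∀ x, x ∈ T ↔ ∀ p : ℕ, p.Prime → p ∣ Nat.card M → Nat.Coprime (orderOf x) p :=
    fun x => ⟨fun hx p hp hd => (hN2 p hp hd x).1 (hx p hp hd),
      fun hx p hp hd => (hN2 p hp hd x).2 (hx p hp hd)⟩
  have hcop : (Nat.card M).Coprime (Nat.card T) := by
    refine Nat.coprime_of_dvd fun p hp hd1 hd2 => ?_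
    haveI : Fact p.Prime := ⟨hp⟩
    obtain ⟨x, hx⟩ := exists_prime_orderOf_dvd_card' (G := T) p hd2
    have h1 := (hTmem x).1 x.2 p hp hd1
    rw [Subgroup.orderOf_coe, hx] at h1
    exact hp.one_lt.ne' (by simpa using h1)
  have hindex : M.index ≠ 1 := fun h => hmax.1 (Subgroup.index_eq_one.1 h)
  obtain ⟨r, hr, hrd⟩ := Nat.exists_prime_and_dvd hindex
  haveI : Fact r.Prime := ⟨hr⟩
  have hrM : ¬ r ∣ Nat.card M := fun h => hN3 r hr h hrd
  have hrG : r ∣ Nat.card G := hrd.trans (Subgroup.index_dvd_card M)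
  obtain ⟨y, hy⟩ := exists_prime_orderOf_dvd_card' (G := G) r hrG
  have hyT : y ∈ T := by
    rw [hTmem]
    intro p hp hd
    rw [hy]
    exact (Nat.coprime_primes hr hp).2 (fun h => hrM (h ▸ hd))
  have hrT : r ∣ Nat.card T := by
    have := orderOf_dvd_natCard (⟨y, hyT⟩ : T)
    rwa [Subgroup.orderOf_mk, hy] at this
  have hMN : M ≤ normalizer (T : Set G) := by
    rw [Subgroup.normalizer_eq_top_iff.2 hTn]
    exact le_top
  have hMsolv : Group.IsSolvable M := inferInstance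
  obtain ⟨R₀, hR₀⟩ := Cfsg.Agent.Lib.Hall.exists_invariant_sylow M T hMN hcop (Or.inl hMsolv) r
  set R : Subgroup G := (R₀ : Subgroup T).map T.subtype with hR
  have hRT : R ≤ T := Subgroup.map_subtype_le _
  have hRne : R ≠ ⊥ := by
    intro hbot
    have h0 : (R₀ : Subgroup T) = ⊥ :=
      (Subgroup.map_eq_bot_iff_of_injective (R₀ : Subgroup T) T.subtype_injective).1 hbot
    exact R₀.ne_bot_of_dvd_card hrT h0
  have hRM : ¬ R ≤ M := by
    intro hle
    apply hRne
    rw [eq_bot_iff]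
    intro x hx
    have h1 : orderOf x ∣ Nat.card M := by
      have := orderOf_dvd_natCard (⟨x, hle hx⟩ : M)
      rwa [Subgroup.orderOf_mk] at this
    have h2 : orderOf x ∣ Nat.card T := by
      have := orderOf_dvd_natCard (⟨x, hRT hx⟩ : T)
      rwa [Subgroup.orderOf_mk] at this
    have h3 := Nat.eq_one_of_dvd_coprimes hcop h1 h2
    exact (Subgroup.mem_bot).2 (orderOf_eq_one_iff.1 h3)
  have hNR : normalizer (R : Set G) = ⊤ := by
    refine hmax.2 _ (lt_of_le_of_ne hR₀ ?_)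
    intro heq
    exact hRM (heq ▸ Subgroup.le_normalizer)
  haveI hRn : R.Normal := Subgroup.normalizer_eq_top_iff.1 hNR
  have hsup : M ⊔ R = ⊤ := hmax.2 _ (lt_of_le_of_ne le_sup_left (fun h => hRM (h ▸ le_sup_right)))
  have hRpg : IsPGroup r R := R₀.isPGroup'.map T.subtype
  haveI hRnil : Group.IsNilpotent R := hRpg.isNilpotent
  haveI hRs : Group.IsSolvable R := inferInstance
  have hsurj : Function.Surjective ((QuotientGroup.mk' R).comp M.subtype) := by
    intro q
    obtain ⟨g, rfl⟩ := QuotientGroup.mk_surjective q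
    have hg : g ∈ M ⊔ R := hsup ▸ Subgroup.mem_top g
    obtain ⟨m, hm, s, hs, rfl⟩ := Subgroup.mem_sup_of_normal_right.1 hg
    refine ⟨⟨m, hm⟩, ?_⟩
    show ((m : G) : G ⧸ R) = ((m * s : G) : G ⧸ R)
    rw [QuotientGroup.mk_mul, (QuotientGroup.eq_one_iff s).2 hs, mul_one]
  haveI : Group.IsSolvable (G ⧸ R) := Group.isSolvable_of_surjective hsurj
  refine Group.isSolvable_of_ker_le_range R.subtype (QuotientGroup.mk' R) ?_
  intro x hx
  have hxR : x ∈ R := by
    rwa [MonoidHom.mem_ker, QuotientGroup.mk'_apply, QuotientGroup.eq_one_iff] at hx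
  exact ⟨⟨x, hxR⟩, rfl⟩

/-- The main theorem with class two in elementwise form. -/
theorem solvable_of_max : ∀ (n : ℕ) (G : Type u) [Group G] [Finite G], Nat.card G = n →
    ∀ M : Subgroup G, IsCoatom M → Group.IsNilpotent M →
    (∀ a ∈ M, ∀ b ∈ M, ∀ c ∈ M, (a * b * a⁻¹ * b⁻¹) * c = c * (a * b * a⁻¹ * b⁻¹)) →
    Group.IsSolvable G := by
  intro n
  induction n using Nat.strong_induction_on with
  | _ n ih =>
    intro G _ _ hn M hmax hnil hcl
    by_cases hcore : M.normalCore = ⊥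
    · exact solvable_of_core_free hmax hcore hnil hcl
    · set C := M.normalCore with hC
      have hCM : C ≤ M := M.normalCore_le
      have hlt : Nat.card (G ⧸ C) < n := by
        have h1 := C.card_mul_index
        have h2 : 1 < Nat.card C := by
          haveI : Nontrivial C := (Subgroup.nontrivial_iff_ne_bot C).2 hcore
          exact Finite.one_lt_card
        have h3 : 0 < C.index := Nat.pos_of_ne_zero Subgroup.index_ne_zero_of_finite
        rw [show Nat.card (G ⧸ C) = C.index from rfl, ← hn, ← h1]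
        nlinarith
      let Mb : Subgroup (G ⧸ C) := M.map (QuotientGroup.mk' C)
      have hmem : ∀ g : G, (g : G ⧸ C) ∈ Mb ↔ g ∈ M := by
        intro g
        constructor
        · rintro ⟨m, hm, hmg⟩
          have h1 : m⁻¹ * g ∈ C := QuotientGroup.eq.1 hmg
          have h2 : g = m * (m⁻¹ * g) := by group
          rw [h2]
          exact M.mul_mem hm (hCM h1)
        · intro hg
          exact ⟨g, hg, rfl⟩
      have hMbmax : IsCoatom Mb := by
        constructor
        · intro htop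
          apply hmax.1
          rw [eq_top_iff]
          intro g _
          exact (hmem g).1 (htop ▸ Subgroup.mem_top _)
        · intro L hL
          have h1 : M < L.comap (QuotientGroup.mk' C) := by
            obtain ⟨l, hl1, hl2⟩ := SetLike.exists_of_lt hL
            obtain ⟨g, rfl⟩ := QuotientGroup.mk_surjective l
            refine lt_of_le_of_ne (fun m hm => hL.le ((hmem m).2 hm)) ?_
            intro heq
            have : g ∈ M := by
              rw [heq]
              exact hl1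
            exact hl2 ((hmem g).2 this)
          have h2 := hmax.2 _ h1
          rw [eq_top_iff]
          intro l _
          obtain ⟨g, rfl⟩ := QuotientGroup.mk_surjective l
          have : g ∈ L.comap (QuotientGroup.mk' C) := h2 ▸ Subgroup.mem_top g
          exact this
      have hMbnil : Group.IsNilpotent Mb :=
        Group.nilpotent_of_surjective ((QuotientGroup.mk' C).subgroupMap M)
          ((QuotientGroup.mk' C).subgroupMap_surjective M)
      have hMbcl : ∀ a ∈ Mb, ∀ b ∈ Mb, ∀ c ∈ Mb,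
          (a * b * a⁻¹ * b⁻¹) * c = c * (a * b * a⁻¹ * b⁻¹) := by
        rintro _ ⟨a, ha, rfl⟩ _ ⟨b, hb, rfl⟩ _ ⟨c, hc, rfl⟩
        have := congrArg (QuotientGroup.mk' C) (hcl a ha b hb c hc)
        simpa only [map_mul, map_inv] using this
      haveI hq : Group.IsSolvable (G ⧸ C) := ih _ hlt (G ⧸ C) rfl Mb hMbmax hMbnil hMbcl
      haveI hCnil : Group.IsNilpotent C := by
        haveI := hnil
        exact Group.nilpotent_of_surjective (Subgroup.subgroupOfEquivOfLe hCM).toMonoidHom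
          (Subgroup.subgroupOfEquivOfLe hCM).surjective
      haveI hCs : Group.IsSolvable C := inferInstance
      refine Group.isSolvable_of_ker_le_range C.subtype (QuotientGroup.mk' C) ?_
      intro x hx
      have hxC : x ∈ C := by
        rwa [MonoidHom.mem_ker, QuotientGroup.mk'_apply, QuotientGroup.eq_one_iff] at hx
      exact ⟨⟨x, hxC⟩, rfl⟩


/-- Class at most two gives central commutators. -/
theorem class_two_elementwise (M : Subgroup G) (hnil : Group.IsNilpotent M)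
    (hcl : Group.nilpotencyClass ↥M ≤ 2) :
    ∀ a ∈ M, ∀ b ∈ M, ∀ c ∈ M, (a * b * a⁻¹ * b⁻¹) * c = c * (a * b * a⁻¹ * b⁻¹) := by
  intro a ha b hb c hc
  have h1 : (⊤ : Subgroup M).lowerCentralSeries 2 = ⊥ :=
    Subgroup.lowerCentralSeries_eq_bot_iff_nilpotencyClass_le.2 hcl
  have h3 : ⁅⁅(⟨a, ha⟩ : M), (⟨b, hb⟩ : M)⁆, (⟨c, hc⟩ : M)⁆ ∈ (⊤ : Subgroup M).lowerCentralSeries 2 :=
    Subgroup.commutator_mem_commutator
      (Subgroup.commutator_mem_commutator (Subgroup.mem_top _) (Subgroup.mem_top _))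
      (Subgroup.mem_top _)
  rw [h1, Subgroup.mem_bot, commutatorElement_eq_one_iff_mul_comm] at h3
  have := congrArg Subtype.val h3
  simpa [commutatorElement_def] using this

theorem solvable_of_max_class_two (M : Subgroup G) (hmax : IsCoatom M) (hnil : Group.IsNilpotent M)
    (hcl : Group.nilpotencyClass ↥M ≤ 2) : Group.IsSolvable G :=
  solvable_of_max _ G rfl M hmax hnil (class_two_elementwise M hnil hcl)

end Main

end Cfsg.Agent.Lib.NilMax
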